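import Mathlib.LinearAlgebra.Matrix.ToLin
import Mathlib.Data.Real.Basic
import Mathlib.Algebra.Module.Submodule.Ker
import Mathlib.LinearAlgebra.Matrix.Symmetric
import Mathlib.Tactic.Positivity
import Mathlib.Tactic.Linarith
import Mathlib.Tactic.Ring
import Mathlib.Tactic.FieldSimp

/-!
Real quadratic-form identity for symmetric matrices:
`∑ᵢⱼ Aᵢⱼ mᵢ mⱼ (yᵢ - yⱼ)² = 2 ∑ᵢ yᵢ² mᵢ (∑ⱼ Aᵢⱼ mⱼ) - 2 ∑ᵢⱼ Aᵢⱼ (mᵢ yᵢ) (mⱼ yⱼ)`.
-/

namespace Groth.Agent.Lib.Helper4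

open Finset

theorem symm_apply_of_isSymm {n : ℕ} {A : Matrix (Fin n) (Fin n) ℝ} (hsymm : A.IsSymm)
    (i j : Fin n) : A j i = A i j := by
  have := congrFun (congrFun hsymm i) j
  simpa [Matrix.transpose_apply] using this

theorem quad_identity {n : ℕ} (A : Matrix (Fin n) (Fin n) ℝ) (hsymm : A.IsSymm)
    (m y : Fin n → ℝ) :
    ∑ i, ∑ j, A i j * m i * m j * (y i - y j) ^ 2 =
      2 * ∑ i, y i ^ 2 * m i * ∑ j, A i j * m j -
        2 * ∑ i, ∑ j, A i j * (m i * y i) * (m j * y j) := by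
  have hs := symm_apply_of_isSymm hsymm
  have h1 : ∑ i, ∑ j, A i j * m i * m j * y j ^ 2 = ∑ i, ∑ j, A i j * m i * m j * y i ^ 2 := by
    rw [Finset.sum_comm]
    apply Finset.sum_congr rfl
    intro i _
    apply Finset.sum_congr rfl
    intro j _
    rw [hs]
    ring
  have h2 : ∑ i, y i ^ 2 * m i * ∑ j, A i j * m j = ∑ i, ∑ j, A i j * m i * m j * y i ^ 2 := by
    apply Finset.sum_congr rfl
    intro i _
    rw [Finset.mul_sum]
    apply Finset.sum_congr rfl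
    intro j _
    ring
  have h3 : ∑ i, ∑ j, A i j * m i * m j * (y i - y j) ^ 2 =
      ∑ i, ∑ j, A i j * m i * m j * y i ^ 2 + ∑ i, ∑ j, A i j * m i * m j * y j ^ 2 -
        2 * ∑ i, ∑ j, A i j * (m i * y i) * (m j * y j) := by
    rw [Finset.mul_sum, ← Finset.sum_add_distrib, ← Finset.sum_sub_distrib]
    apply Finset.sum_congr rfl
    intro i _
    rw [Finset.mul_sum, ← Finset.sum_add_distrib, ← Finset.sum_sub_distrib]
    apply Finset.sum_congr rfl
    intro j _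
    ring
  rw [h3, h1, h2]
  ring

end Groth.Agent.Lib.Helper4
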